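import Cfsg.Agent.H275.Heis

/-!
# The centre of a Sylow 3-subgroup `3^{1+2}_+` centralized by its normalizer is isolated
-/

set_option autoImplicit false
set_option linter.unusedSectionVars false

open Cfsg

namespace Cfsg.Agent.H658.IsoZ

open Cfsg.Agent.H275.Heis

/-- A noncentral element `u` of an extraspecial group of order `p³` and exponent `p` is moved
to `z * u` by a conjugation, for each central `z`. -/
theorem exists_conj_eq {R : Type*} [Group R] {p : ℕ} [Fact p.Prime] (D : HData p R) {z : R}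
    (hz : z ∈ Subgroup.center R) {u : R} (hu : u ∉ Subgroup.center R) :
    ∃ s : R, s * u * s⁻¹ = z * u := by
  have h1 : ∃ v : R, D.c v u ≠ 0 := by
    by_contra hcon
    push Not at hcon
    exact hu (Subgroup.mem_center_iff.2 fun v => (D.c_eq_zero_iff.1 (hcon v)).eq)
  obtain ⟨v, hv⟩ := h1
  rw [D.center_eq] at hz
  obtain ⟨a, rfl⟩ := exists_pw_of_mem_zpowers (D.pow_p D.z) hz
  refine ⟨pw v (a / D.c v u), ?_⟩
  rw [D.conj_eq, D.c_pw_left, div_mul_cancel₀ _ hv]

/-- The computation in `SL₂(3)`. -/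
theorem conj_sq_eq_inv {G : Type*} [Group G] {z x s t : G} (hzx : z * x = x * z)
    (hz3 : z ^ 3 = 1) (hx3 : x ^ 3 = 1) (hsz : s * z * s⁻¹ = z) (hsx : s * x * s⁻¹ = z * x)
    (htx : t * x * t⁻¹ = x) (htz : t * z * t⁻¹ = x * z) :
    ((s * t) * (s * t)) * z * ((s * t) * (s * t))⁻¹ = z⁻¹ := by
  have h1 : ∀ a : G, (s * t) * a * (s * t)⁻¹ = s * (t * a * t⁻¹) * s⁻¹ := fun a => by group
  have h2 : (s * t) * z * (s * t)⁻¹ = z * x * z := by
    rw [h1, htz]
    calc s * (x * z) * s⁻¹ = (s * x * s⁻¹) * (s * z * s⁻¹) := by group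
      _ = z * x * z := by rw [hsx, hsz]
  have h3 : (s * t) * x * (s * t)⁻¹ = z * x := by
    rw [h1, htx, hsx]
  have h4 : ((s * t) * (s * t)) * z * ((s * t) * (s * t))⁻¹
      = (s * t) * ((s * t) * z * (s * t)⁻¹) * (s * t)⁻¹ := by group
  have h5 : (s * t) * (z * x * z) * (s * t)⁻¹ = ((s * t) * z * (s * t)⁻¹) *
      ((s * t) * x * (s * t)⁻¹) * ((s * t) * z * (s * t)⁻¹) := by group
  rw [h4, h2, h5, h2, h3]
  have hc : Commute z x := hzx
  rw [eq_inv_iff_mul_eq_one]
  have h6 : z * x * z * (z * x) * (z * x * z) * z = z ^ 3 * z ^ 3 * x ^ 3 := by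
    have e1 : x * z = z * x := hzx.symm
    have e2 : ∀ a : G, x * (z * a) = z * (x * a) := fun a => by
      rw [← mul_assoc, e1, mul_assoc]
    simp only [pow_succ, pow_zero, one_mul, mul_assoc, e1, e2]
  rw [h6, hz3, hx3]
  simp

/-- `z` is isolated in `P`. -/
theorem isolated {G : Type*} [Group G] [Finite G] (P : Sylow 3 G)
    (hE : Cfsg.IsExtraspecial 3 ↥(P : Subgroup G)) (h27 : Nat.card ↥(P : Subgroup G) = 27)
    (hexp : ∀ x ∈ (P : Subgroup G), x ^ 3 = 1)
    (hNC : ∀ g ∈ Subgroup.normalizer ((P : Subgroup G) : Set G), ∀ z ∈ (P : Subgroup G),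
      (∀ y ∈ (P : Subgroup G), z * y = y * z) → g * z = z * g)
    (z : G) (hz : z ∈ (P : Subgroup G)) (hzc : ∀ y ∈ (P : Subgroup G), z * y = y * z)
    (g : G) (hg : g * z * g⁻¹ ∈ (P : Subgroup G)) : g * z * g⁻¹ = z := by
  have : Fact (Nat.Prime 3) := ⟨Nat.prime_three⟩
  have hexp' : Monoid.exponent ↥(P : Subgroup G) = 3 := by
    have h1 : Monoid.exponent ↥(P : Subgroup G) ∣ 3 := by
      rw [Monoid.exponent_dvd_iff_forall_pow_eq_one]
      intro x
      exact Subtype.ext (hexp x x.2)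
    rcases (Nat.dvd_prime Nat.prime_three).1 h1 with h2 | h2
    · exfalso
      rw [Monoid.exp_eq_one_iff] at h2
      have h3 : Nat.card ↥(P : Subgroup G) = 1 := Nat.card_eq_one_iff_unique.2 ⟨h2, ⟨1⟩⟩
      omega
    · exact h2
  obtain ⟨D⟩ := exists_hData (p := 3) hE (by rw [h27]; norm_num) hexp'
  have hcen : ∀ u : ↥(P : Subgroup G), u ∈ Subgroup.center ↥(P : Subgroup G) ↔
      ∀ y ∈ (P : Subgroup G), (u : G) * y = y * u := by
    intro u
    rw [Subgroup.mem_center_iff]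
    constructor
    · intro h y hy
      exact (congrArg Subtype.val (h ⟨y, hy⟩)).symm
    · intro h y
      exact Subtype.ext (h y y.2).symm
  -- the central case (Burnside)
  have hcentral : ∀ k : G, (∀ y ∈ (P : Subgroup G), (k * z * k⁻¹) * y = y * (k * z * k⁻¹)) →
      k * z * k⁻¹ = z := by
    intro k hk
    obtain ⟨n, hn, hn'⟩ := Sylow.conj_eq_normalizer_conj_of_mem_centralizer P z k⁻¹
      (Subgroup.mem_centralizer_iff.2 fun y hy => (hzc y hy).symm)
      (Subgroup.mem_centralizer_iff.2 fun y hy => by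
        rw [inv_inv]; exact (hk y hy).symm)
    rw [inv_inv] at hn'
    rw [hn']
    have h1 := hNC n hn z hz hzc
    rw [mul_assoc, ← h1, inv_mul_cancel_left]
  have hz3 : z ^ 3 = 1 := hexp z hz
  by_cases hy : ∀ y ∈ (P : Subgroup G), (g * z * g⁻¹) * y = y * (g * z * g⁻¹)
  · exact hcentral g hy
  -- the noncentral case
  exfalso
  have hz1 : z ≠ 1 := by
    rintro rfl
    apply hy
    intro y _
    simp
  set y : G := g * z * g⁻¹ with hydef
  -- move `y` to `z` and `z` into `P`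
  have hcomm : z * y = y * z := hzc y hg
  have hz₁ : g⁻¹ * z * g ∈ Subgroup.centralizer ({z} : Set G) := by
    rw [Subgroup.mem_centralizer_singleton_iff]
    have : z = g⁻¹ * y * g := by rw [hydef]; group
    calc g⁻¹ * z * g * z = g⁻¹ * z * g * (g⁻¹ * y * g) := by rw [← this]
      _ = g⁻¹ * (z * y) * g := by group
      _ = g⁻¹ * (y * z) * g := by rw [hcomm]
      _ = (g⁻¹ * y * g) * (g⁻¹ * z * g) := by group
      _ = z * (g⁻¹ * z * g) := by rw [← this]
  have hPC : (P : Subgroup G) ≤ Subgroup.centralizer ({z} : Set G) := by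
    intro w hw
    rw [Subgroup.mem_centralizer_singleton_iff]
    exact (hzc w hw).symm
  obtain ⟨c, hc, hcP⟩ : ∃ c ∈ Subgroup.centralizer ({z} : Set G),
      c * (g⁻¹ * z * g) * c⁻¹ ∈ (P : Subgroup G) := by
    set C := Subgroup.centralizer ({z} : Set G) with hC
    have hp : IsPGroup 3 (Subgroup.zpowers (⟨g⁻¹ * z * g, hz₁⟩ : C)) := by
      rw [IsPGroup.iff_card]
      have h1 : (⟨g⁻¹ * z * g, hz₁⟩ : C) ^ 3 = 1 := by
        apply Subtype.ext
        show (g⁻¹ * z * g) ^ 3 = 1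
        have : (g⁻¹ * z * g) ^ 3 = g⁻¹ * z ^ 3 * g := by
          simp only [pow_succ, pow_zero, one_mul]; group
        rw [this, hz3]; group
      have h2 := orderOf_dvd_of_pow_eq_one h1
      rw [Nat.card_zpowers]
      rcases (Nat.dvd_prime Nat.prime_three).1 h2 with h3 | h3
      · exact ⟨0, by rw [h3]; rfl⟩
      · exact ⟨1, by rw [h3]; rfl⟩
    obtain ⟨Q, hQ⟩ := hp.exists_le_sylow
    obtain ⟨c, hc⟩ := MulAction.exists_smul_eq C Q (P.subtype hPC)
    refine ⟨c, c.2, ?_⟩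
    have h1 : (⟨g⁻¹ * z * g, hz₁⟩ : C) ∈ (Q : Subgroup C) := hQ (Subgroup.mem_zpowers _)
    have h2 : c * (⟨g⁻¹ * z * g, hz₁⟩ : C) * c⁻¹ ∈ ((c • Q : Sylow 3 C) : Subgroup C) := by
      rw [Sylow.coe_subgroup_smul]
      exact Subgroup.smul_mem_pointwise_smul_iff.2 h1
    rw [hc] at h2
    exact h2
  set k : G := c * g⁻¹ with hk
  set x : G := k * z * k⁻¹ with hx
  have hxP : x ∈ (P : Subgroup G) := by
    have : x = c * (g⁻¹ * z * g) * c⁻¹ := by rw [hx, hk]; group
    rw [this]; exact hcP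
  have hky : k * y * k⁻¹ = z := by
    rw [hk, hydef]
    have : c * g⁻¹ * (g * z * g⁻¹) * (c * g⁻¹)⁻¹ = c * z * c⁻¹ := by group
    rw [this]
    rw [Subgroup.mem_centralizer_singleton_iff] at hc
    rw [hc, mul_inv_cancel_right]
  -- `x` is not central in `P`
  have hxc : ¬ ∀ w ∈ (P : Subgroup G), x * w = w * x := by
    intro hcon
    have h1 : x = z := hcentral k hcon
    apply hy
    have h2 : y = z := by
      have h3 : k * y * k⁻¹ = k * z * k⁻¹ := by rw [hky, ← hx, h1]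
      exact mul_left_cancel (mul_right_cancel h3)
    rw [h2]
    exact hzc
  have hx3 : x ^ 3 = 1 := hexp x hxP
  obtain ⟨s, hs⟩ := exists_conj_eq D (z := ⟨z, hz⟩) ((hcen _).2 hzc) (u := ⟨x, hxP⟩)
    (fun h => hxc ((hcen _).1 h))
  obtain ⟨⟨t, htP⟩, ht⟩ := exists_conj_eq D (z := ⟨z, hz⟩) ((hcen _).2 hzc) (u := ⟨y, hg⟩)
    (fun h => hy ((hcen _).1 h))
  have hs' : (s : G) * x * (s : G)⁻¹ = z * x := congrArg Subtype.val hs
  have ht' : t * y * t⁻¹ = z * y := congrArg Subtype.val ht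
  have hsz : (s : G) * z * (s : G)⁻¹ = z := by rw [← hzc s s.2, mul_inv_cancel_right]
  have htz : t * z * t⁻¹ = z := by rw [← hzc t htP, mul_inv_cancel_right]
  have h1 := conj_sq_eq_inv (z := z) (x := x) (s := (s : G)) (t := k * t * k⁻¹) (hzc x hxP) hz3 hx3
    hsz hs' (by
      calc k * t * k⁻¹ * x * (k * t * k⁻¹)⁻¹ = k * (t * (k⁻¹ * x * k) * t⁻¹) * k⁻¹ := by group
        _ = k * (t * z * t⁻¹) * k⁻¹ := by
            have : k⁻¹ * x * k = z := by rw [hx]; group
            rw [this]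
        _ = x := by rw [htz]) (by
      calc k * t * k⁻¹ * z * (k * t * k⁻¹)⁻¹ = k * (t * (k⁻¹ * z * k) * t⁻¹) * k⁻¹ := by group
        _ = k * (t * y * t⁻¹) * k⁻¹ := by
            have : k⁻¹ * z * k = y := by rw [← hky]; group
            rw [this]
        _ = (k * z * k⁻¹) * (k * y * k⁻¹) := by rw [ht']; group
        _ = x * z := by rw [hky])
  have h2 : z⁻¹ = z := by
    rw [← h1]
    apply hcentral
    rw [h1]
    intro w hw
    have := hzc w hw
    rw [inv_mul_eq_iff_eq_mul, ← mul_assoc, this, mul_inv_cancel_right]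
  apply hz1
  have h3 : z * z = 1 := by
    nth_rewrite 1 [← h2]
    exact inv_mul_cancel z
  have h4 : z ^ 3 = z * z * z := by rw [pow_succ, pow_two]
  rw [hz3, h3, one_mul] at h4
  exact h4.symm

end Cfsg.Agent.H658.IsoZ
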