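import Cfsg.Agent.S4695
import Cfsg.Agent.S4696
import Cfsg.Agent.H658.CyclicRoot
import Cfsg.Agent.H658.CyclicPattern

/-!
# The pattern of a block with a cyclic defect group from S4695 and S4696
-/

set_option autoImplicit false
set_option linter.unusedSectionVars false

open Cfsg
open scoped ComplexConjugate

namespace Cfsg.Agent.H658

open Cfsg.Agent.Blocks.Local Cfsg.Agent.Characters

universe u

variable {p : ℕ} [Fact p.Prime] {M : Ideal AlgInt}

/-- The consequences of the theory of blocks with a cyclic defect group. -/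
theorem cyclicPattern (hM : IsPModular p M) : CyclicPattern.{u} p M := by
  intro G _ _ D hD a ha hDa B hB hBD
  have hpp : p.Prime := Fact.out
  have hab : IsMulCommutative D := by
    have := hD
    exact ⟨⟨fun x y => (IsCyclic.commGroup (α := D)).mul_comm x y⟩⟩
  obtain ⟨b, hb⟩ := exists_root_centralizer hM hab hBD hB
  obtain ⟨T, hT⟩ := exists_stabilizer hM D hb.1
  have h1 := S4695.result p M hM D hD a ha hDa B hB hBD b hb T hT _ rfl
  obtain ⟨h2, -, X, Y, h3, h4, h5, h6, -, δ, δ₀, h7, h8, h9, -⟩ :=
    S4696.result p M hM D hD a ha hDa B hB hBD b hb T hT _ rfl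
  refine ⟨_, X, Y, δ, δ₀, ?_, ?_, h1, h3, h4, h5, h7, h8, h9⟩
  · exact Nat.pos_of_dvd_of_pos h2 (by have := hpp.one_lt; omega)
  · rw [h6]
    exact div_add_le hpp.one_lt ha h2

end Cfsg.Agent.H658
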