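import Cfsg.Agent.H658.SumMajor
import Cfsg.Agent.H658.Cyclo
import Cfsg.Agent.Blocks.GaloisConj

/-!
# Heights and the inertial index

`D` is a defect group of `B`, `H = D C_G(D)`, `b` a block of `H` inducing `B`. The sum of the
contributions of the major subsections `(z, b ^ C_G(z))`, `z ∈ Z(D)`, to the norm of `χ ∈ B` is at
least `|Z(D)| * p ^ (ht χ - d)` and at most the inertial index.
-/

set_option autoImplicit false
set_option linter.unusedSectionVars false

open Cfsg
open scoped ComplexConjugate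

namespace Cfsg.Agent.H658

open Cfsg.Agent.Blocks.Local Cfsg.Agent.Characters Cfsg.Agent.Blocks.Blau
open Cfsg.Agent.H613.RegGram Cfsg.Agent.H613.Contrib Cfsg.Agent.H613.ContribVal
open Cfsg.Agent.H662 (tr trB tr_apply tr_apply_map tr_apply_one tr_mem_trB isPBlock_trB mem_trB
  tr_symm_tr tr_tr_symm trB_symm_trB isInducedBlockIn_iff inducedBlock_unique)

variable {G : Type*} [Group G] [Finite G] {p : ℕ} [Fact p.Prime] {M : Ideal AlgInt}

/-- Contributions of blocks induced by the same block agree. -/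
theorem cn_congr (hM : IsPModular p M) {y y' : G} (hy : y = y') {R H H' : Subgroup G}
    (hH : H = H') (hR : R ≤ H) {r : Set (IrrCharacter R)} {f : Set (IrrCharacter H)}
    {f' : Set (IrrCharacter H')} (h : IsInducedBlockIn M H R r f)
    (h' : IsInducedBlockIn M H' R r f') (χ : G → ℂ) : cn p y f χ = cn p y' f' χ := by
  have := isPrime_of_isPModular hM
  subst hH hy
  have h1 : f = f' := inducedBlock_unique ((isInducedBlockIn_iff hR).1 h)
    ((isInducedBlockIn_iff hR).1 h')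
  rw [h1]

/-- The action of an embedding on the scaled contribution. -/
theorem sigma_contr (hM : IsPModular p M) {u : G} {q : ℕ} (hq : q ≠ 0) (hu : u ^ q = 1)
    {H : Subgroup G} (hH : H = Subgroup.centralizer ({u} : Set G))
    {b : Set (IrrCharacter H)} (hb : IsPBlock M b) (χ : IrrCharacter G)
    (σ : algebraicClosure ℚ ℂ →+* ℂ) (m : ℕ) (hm : m.Coprime q)
    (hσ : ∀ t : algebraicClosure ℚ ℂ, t ^ q = 1 → σ t = (t : ℂ) ^ m) (s : ℚ)
    (x : algebraicClosure ℚ ℂ)
    (hx : (x : ℂ) = (((s : ℝ) * ((p : ℝ) ^ blockDefect p b * cn p u b (χ : G → ℂ)) : ℝ) : ℂ)) :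
    σ x = (((s : ℝ) * ((p : ℝ) ^ blockDefect p b * cn p (u ^ m) b (χ : G → ℂ)) : ℝ) : ℂ) := by
  classical
  have := Fintype.ofFinite H
  have := Core.finite_irr (G := H)
  have := Fintype.ofFinite (IrrCharacter H)
  have : Fintype b := Fintype.ofFinite b
  obtain ⟨n, e, hE⟩ := exists_exp hH (q := q) hu
  have hz : ∀ ξ η : IrrCharacter H, ∃ z : ℤ, ξ ∈ b →
      (p : ℂ) ^ blockDefect p b * rg p (ξ : H → ℂ) (η : H → ℂ) = z := by
    intro ξ η
    by_cases hξ : ξ ∈ b
    · obtain ⟨z, hz⟩ := exists_int_rg hM hξ η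
      exact ⟨z, fun _ => hz⟩
    · exact ⟨0, fun h => absurd h hξ⟩
  choose z hz using hz
  have h1 : ∀ k : ℕ, H = Subgroup.centralizer ({u ^ k} : Set G) →
      (((s : ℝ) * ((p : ℝ) ^ blockDefect p b * cn p (u ^ k) b (χ : G → ℂ)) : ℝ) : ℂ) =
        ∑ i : b × b, ((s * ((n χ i.1 * n χ i.2 * z i.1 i.2 : ℤ) : ℚ) : ℚ) : ℂ) *
          (e i.1 * conj (e i.2)) ^ k := by
    intro k hk
    have h2 := pow_mul_contr_eq hM hE hb (z := z) (fun ξ hξ η => hz ξ η hξ) χ χ hk
    rw [contr_self_eq_cn] at h2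
    push_cast
    push_cast at h2
    rw [h2, Finset.mul_sum]
    exact Finset.sum_congr rfl fun i _ => by ring
  have h2 := h1 1 (by rw [pow_one]; exact hH)
  rw [pow_one] at h2
  have h3 := h1 m (by rw [Blocks.GaloisConj.centralizer_pow_eq hu hm]; exact hH)
  rw [h2] at hx
  rw [h3]
  have h4 := sigma_sum hq (fun i : b × b => (s * ((n χ i.1 * n χ i.2 * z i.1 i.2 : ℤ) : ℚ) : ℚ))
    (fun i : b × b => e i.1 * conj (e i.2))
    (fun i => pow_mul_conj_eq_one (hE.root _) (hE.root _)) σ m hσ 1 x hx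
  rw [one_mul] at h4
  exact h4

variable {B : Set (IrrCharacter G)} {D : Subgroup G}

/-- `|Z(D)| ≤ p ^ (d - ht χ) * ∑_{z ∈ Z(D)} m(z)`. -/
theorem card_center_le (hM : IsPModular p M) (hD : IsDefectGroup p M B D)
    {b : Set (IrrCharacter ↥(D ⊔ Subgroup.centralizer (D : Set G)))}
    (f : ∀ z : Subgroup.center D,
      Set (IrrCharacter (Subgroup.centralizer ({((z : D) : G)} : Set G))))
    (hf1 : ∀ z : Subgroup.center D, IsInducedBlockIn M
      (Subgroup.centralizer ({((z : D) : G)} : Set G))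
      (D ⊔ Subgroup.centralizer (D : Set G)) b (f z))
    (hf2 : ∀ z : Subgroup.center D,
      IsInducedBlock M (Subgroup.centralizer ({((z : D) : G)} : Set G)) (f z) B)
    (hf4 : ∀ z : Subgroup.center D, blockDefect p (f z) = blockDefect p B)
    [Fintype (Subgroup.center D)] {χ : IrrCharacter G} (hχ : χ ∈ B) :
    (Nat.card (Subgroup.center D) : ℝ) ≤
      (p : ℝ) ^ (blockDefect p B - blockHeight p B (χ : G → ℂ)) *
        ∑ z : Subgroup.center D, cn p ((z : D) : G) (f z) (χ : G → ℂ) := by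
  classical
  have hpp : p.Prime := Fact.out
  have hDp : IsPGroup p D := Blocks.Basic.isPGroup_of_isDefectGroup hD
  obtain ⟨q, hqdef⟩ : ∃ q : ℕ, q = Nat.card D := ⟨_, rfl⟩
  have hq0 : q ≠ 0 := by rw [hqdef]; exact Nat.card_pos.ne'
  have hzq : ∀ z : D, (z : G) ^ q = 1 := by
    intro z
    rw [hqdef]
    have h1 : z ^ Nat.card D = 1 := pow_card_eq_one'
    have h2 := congrArg (Subtype.val) h1
    rw [Subgroup.coe_pow, Subgroup.coe_one] at h2
    exact h2
  have hzp : ∀ z : D, ∃ k : ℕ, orderOf (z : G) = p ^ k := by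
    intro z
    rw [Subgroup.orderOf_coe]
    exact IsPGroup.iff_orderOf.1 hDp z
  have hzc : ∀ z : Subgroup.center D, ∀ w ∈ D, ((z : D) : G) * w = w * ((z : D) : G) := by
    intro z w hw
    have h1 := Subgroup.mem_center_iff.1 z.2 ⟨w, hw⟩
    exact (congrArg Subtype.val h1).symm
  have := Fintype.ofFinite G
  have hadd := H648.HeightForm.defect_add (p := p) B hχ
  have hle : blockHeight p B (χ : G → ℂ) ≤ blockDefect p B := by
    have h2 : (charDegree (χ : G → ℂ)).factorization p ≤ (Nat.card G).factorization p :=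
      (Nat.factorization_le_iff_dvd (Blocks.Basic.charDegree_pos χ.2).ne' Nat.card_pos.ne').2
        (S0914.degree_spec χ).2.2 p
    omega
  obtain ⟨k, hk⟩ : ∃ k, k = blockDefect p B - blockHeight p B (χ : G → ℂ) := ⟨_, rfl⟩
  have hkh : k + blockHeight p B (χ : G → ℂ) = blockDefect p B := by omega
  rw [← hk]
  -- integrality and positivity
  have hint : ∀ z : Subgroup.center D,
      IsIntegral ℤ (((p : ℝ) ^ k * cn p ((z : D) : G) (f z) (χ : G → ℂ) : ℝ) : ℂ) ∧
      0 < (p : ℝ) ^ k * cn p ((z : D) : G) (f z) (χ : G → ℂ) := by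
    intro z
    have := Fintype.ofFinite (Subgroup.centralizer ({((z : D) : G)} : Set G))
    have := Core.finite_irr (G := Subgroup.centralizer ({((z : D) : G)} : Set G))
    have : Fintype (f z) := Fintype.ofFinite (f z)
    have h1 := isIntegral_pow_sub_mul_contr hM (hzp z) rfl (hf2 z) (hf4 z) hχ χ
    have h2 := contr_self_ne_zero hM (hzp z) rfl (hf2 z) (hf4 z) hχ
    rw [contr_self_eq_cn] at h1 h2
    rw [← hk] at h1
    constructor
    · push_cast
      exact h1
    · refine mul_pos (pow_pos (by exact_mod_cast hpp.pos) _)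
        (lt_of_le_of_ne (cn_nonneg _ _ _ _) fun h => h2 ?_)
      rw [← h]
      norm_num
  rw [Finset.mul_sum, Nat.card_eq_fintype_card]
  refine card_le_sum (fun z : Subgroup.center D =>
    (p : ℝ) ^ k * cn p ((z : D) : G) (f z) (χ : G → ℂ)) (fun z => (hint z).2)
    (fun z => (hint z).1) hq0 ?_
  intro σ m hm hσ
  have hcop : (Nat.card (Subgroup.center D)).Coprime m := by
    refine Nat.Coprime.coprime_dvd_left ?_ hm.symm
    rw [hqdef]
    exact Subgroup.card_subgroup_dvd_card _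
  refine ⟨powCoprime hcop, fun z x hx => ?_⟩
  have hph : ((p : ℝ) ^ blockHeight p B (χ : G → ℂ)) ≠ 0 :=
    pow_ne_zero _ (by exact_mod_cast hpp.ne_zero)
  have hs : ∀ t : ℝ, (p : ℝ) ^ k * t = (((1 / (p : ℚ) ^ blockHeight p B (χ : G → ℂ) : ℚ)) : ℝ) *
      ((p : ℝ) ^ blockDefect p (f z) * t) := by
    intro t
    rw [hf4, ← hkh, pow_add]
    push_cast
    field_simp
  rw [hs] at hx
  have h1 := sigma_contr hM hq0 (hzq z) rfl (hf1 z).2.1 χ σ m hm hσ _ x hx
  rw [h1, ← hs]
  congr 2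
  -- the subsection of the power
  have h2 : (((powCoprime hcop z : Subgroup.center D) : D) : G) = ((z : D) : G) ^ m := by
    rw [powCoprime_apply]
    push_cast
    rfl
  refine cn_congr hM h2.symm ?_ (root_le_centralizer (z : D).2 (hzc z)) (hf1 z)
    (hf1 (powCoprime hcop z)) (χ : G → ℂ)
  rw [h2, Blocks.GaloisConj.centralizer_pow_eq (hzq z) hm]

/-- The stabilizer orbits. -/
theorem card_orbit_le {H T : Subgroup G} {z₀ : G} (hHz : ∀ h ∈ H, h * z₀ = z₀ * h) {J : Type*}
    (u : J → G) (hu : Function.Injective u) (hJ : ∀ j, ∃ t ∈ T, t * u j * t⁻¹ = z₀) :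
    Nat.card J ≤ H.relIndex T := by
  classical
  choose t ht htj using hJ
  have h1 : H.relIndex T = Nat.card (T ⧸ H.subgroupOf T) := rfl
  rw [h1]
  refine Nat.card_le_card_of_injective
    (fun j => ((⟨(t j)⁻¹, T.inv_mem (ht j)⟩ : T) : T ⧸ H.subgroupOf T)) ?_
  intro j j' hjj
  dsimp only at hjj
  rw [QuotientGroup.eq, Subgroup.mem_subgroupOf] at hjj
  have h2 : t j * (t j')⁻¹ ∈ H := by
    have h3 : ((⟨(t j)⁻¹, T.inv_mem (ht j)⟩ : T)⁻¹ * (⟨(t j')⁻¹, T.inv_mem (ht j')⟩ : T) : G) =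
        t j * (t j')⁻¹ := by
      push_cast
      group
    rw [← h3]
    exact hjj
  have h4 := hHz _ h2
  apply hu
  calc u j = (t j)⁻¹ * (t j * u j * (t j)⁻¹) * t j := by group
    _ = (t j)⁻¹ * z₀ * t j := by rw [htj]
    _ = (t j')⁻¹ * ((t j * (t j')⁻¹)⁻¹ * (z₀ * (t j * (t j')⁻¹))) * t j' := by group
    _ = (t j')⁻¹ * ((t j * (t j')⁻¹)⁻¹ * ((t j * (t j')⁻¹) * z₀)) * t j' := by rw [h4]
    _ = (t j')⁻¹ * z₀ * t j' := by group
    _ = (t j')⁻¹ * (t j' * u j' * (t j')⁻¹) * t j' := by rw [htj]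
    _ = u j' := by group

/-- The sum of the contributions of the major subsections attached to `Z(D)` is at most the
inertial index. -/
theorem sum_center_le (hM : IsPModular p M) (hD : IsDefectGroup p M B D)
    {b : Set (IrrCharacter ↥(D ⊔ Subgroup.centralizer (D : Set G)))}
    (f : ∀ z : Subgroup.center D,
      Set (IrrCharacter (Subgroup.centralizer ({((z : D) : G)} : Set G))))
    (hf1 : ∀ z : Subgroup.center D, IsInducedBlockIn M
      (Subgroup.centralizer ({((z : D) : G)} : Set G))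
      (D ⊔ Subgroup.centralizer (D : Set G)) b (f z))
    (hf3 : ∀ z : Subgroup.center D, IsDefectGroup p M (f z)
      (D.subgroupOf (Subgroup.centralizer ({((z : D) : G)} : Set G))))
    [Fintype (Subgroup.center D)] (χ : IrrCharacter G) {T : Subgroup G}
    (hT : ∀ g : G, g ∈ T ↔ (g ∈ Subgroup.normalizer (D : Set G) ∧ ∀ θ ∈ b,
      ∀ θ' : IrrCharacter ↥(D ⊔ Subgroup.centralizer (D : Set G)),
        (∀ h h' : ↥(D ⊔ Subgroup.centralizer (D : Set G)), (h' : G) = g * h * g⁻¹ →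
          (θ' : ↥(D ⊔ Subgroup.centralizer (D : Set G)) → ℂ) h' =
            (θ : ↥(D ⊔ Subgroup.centralizer (D : Set G)) → ℂ) h) → θ' ∈ b)) :
    ∑ z : Subgroup.center D, cn p ((z : D) : G) (f z) (χ : G → ℂ) ≤
      ((D ⊔ Subgroup.centralizer (D : Set G)).relIndex T : ℕ) := by
  classical
  have hDp : IsPGroup p D := Blocks.Basic.isPGroup_of_isDefectGroup hD
  have hzc : ∀ z : Subgroup.center D, ∀ w ∈ D, ((z : D) : G) * w = w * ((z : D) : G) := by
    intro z w hw
    have h1 := Subgroup.mem_center_iff.1 z.2 ⟨w, hw⟩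
    exact (congrArg Subtype.val h1).symm
  refine sum_major_le hM (fun z : Subgroup.center D => ((z : D) : G)) ?_ f
    (fun z => (hf1 z).2.1) ?_ χ
  · intro z
    rw [Subgroup.orderOf_coe]
    exact IsPGroup.iff_orderOf.1 hDp z
  · intro i
    refine card_orbit_le (z₀ := ((i : D) : G)) ?_ (fun j => ((j.1 : D) : G)) ?_ ?_
    · intro h hh
      exact Subgroup.mem_centralizer_singleton_iff.1
        (root_le_centralizer (i : D).2 (hzc i) hh)
    · intro j j' hjj
      exact Subtype.ext (Subtype.ext (Subtype.ext hjj))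
    · rintro ⟨j, x, ε, hε, hx, hεf⟩
      obtain ⟨t, ht, htN, htb⟩ := fuse hM rfl rfl rfl (i : D).2 (hzc i) (hf1 j) (hf3 j)
        (le_centralizer_of_mem_center (hzc j)) (hf1 i) (hf3 i) x hx hε hεf
      exact ⟨t, (hT t).2 ⟨htN, htb⟩, ht⟩

end Cfsg.Agent.H658
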