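import Cfsg.Agent.H658.Major

/-!
# Conjugacy of the major subsections attached to the centre of a defect group

* `inducedIn_conj`: block induction inside a subgroup is compatible with conjugation;
* `fuse`: if the major subsections `(z, f)` and `(z', f')` attached to the block `b` of
  `H = D C_G(D)` are conjugate by `x`, then `z' = t z t⁻¹` for some `t` in the stabilizer of `b` in
  `N_G(D)`.
-/

set_option autoImplicit false

open Cfsg

namespace Cfsg.Agent.H658

open Cfsg.Agent.H662 (eIn coe_eIn coe_eIn_symm exists_defectGroup defectGroup_conj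
  isInducedBlockIn_iff tr trB tr_apply tr_apply_map tr_apply_one tr_mem_trB isPBlock_trB
  isDefectGroup_trB mem_trB tr_symm_tr tr_tr_symm)

variable {G : Type*} [Group G]

/-- `e` is conjugation by `g`. -/
def IsCj (g : G) {K K' : Subgroup G} (e : K ≃* K') : Prop := ∀ x : K, ((e x : K') : G) = g * x * g⁻¹

theorem IsCj.unique {g : G} {K K' : Subgroup G} {e e' : K ≃* K'} (h : IsCj g e) (h' : IsCj g e') :
    e = e' := MulEquiv.ext fun x => Subtype.ext ((h x).trans (h' x).symm)

theorem IsCj.symm {g : G} {K K' : Subgroup G} {e : K ≃* K'} (h : IsCj g e) : IsCj g⁻¹ e.symm := by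
  intro x
  have h1 := h (e.symm x)
  rw [e.apply_symm_apply] at h1
  rw [h1]
  group

theorem IsCj.trans {g g' : G} {K K' K'' : Subgroup G} {e : K ≃* K'} {e' : K' ≃* K''}
    (h : IsCj g e) (h' : IsCj g' e') : IsCj (g' * g) (e.trans e') := by
  intro x
  rw [MulEquiv.trans_apply, h' (e x), h x]
  group

theorem trB_trB {K K' K'' : Type*} [Group K] [Group K'] [Group K''] (e : K ≃* K') (e' : K' ≃* K'')
    (f : Set (IrrCharacter K)) : trB e' (trB e f) = trB (e.trans e') f := by
  ext ξ
  rw [mem_trB, mem_trB, mem_trB]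
  exact Iff.rfl

/-- Conjugation by an element of the subgroup fixes every set of irreducible characters. -/
theorem trB_of_mem {c : G} {K : Subgroup G} (hc : c ∈ K) {e : K ≃* K} (h : IsCj c e)
    (f : Set (IrrCharacter K)) : trB e f = f := by
  ext ξ
  rw [mem_trB]
  have h1 : tr e.symm ξ = ξ := by
    apply Subtype.ext
    funext x
    rw [tr_apply, MulEquiv.symm_symm]
    have h2 : e x = ⟨c, hc⟩ * x * ⟨c, hc⟩⁻¹ := Subtype.ext (h x)
    rw [h2]
    exact Cfsg.Agent.Blocks.Basic.irr_conj ξ.2 x ⟨c, hc⟩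
  rw [h1]

/-- The isomorphism of conjugation between a subgroup and its image. -/
noncomputable def cjIso (g : G) (K K' : Subgroup G)
    (h : K.map (MulAut.conj g).toMonoidHom = K') : K ≃* K' :=
  (K.equivMapOfInjective (MulAut.conj g).toMonoidHom (MulAut.conj g).injective).trans
    (MulEquiv.subgroupCongr h)

theorem isCj_cjIso (g : G) (K K' : Subgroup G)
    (h : K.map (MulAut.conj g).toMonoidHom = K') : IsCj g (cjIso g K K' h) := fun _ => rfl

/-- Block induction inside a subgroup is compatible with conjugation. -/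
theorem inducedIn_conj {M : Ideal AlgInt} {K H K' H' : Subgroup G} {g : G} {e : K ≃* K'}
    (he : IsCj g e) {e₂ : H ≃* H'} (he₂ : IsCj g e₂) {b : Set (IrrCharacter K)}
    {f : Set (IrrCharacter H)} (h : IsInducedBlockIn M H K b f) :
    IsInducedBlockIn M H' K' (trB e b) (trB e₂ f) := by
  obtain ⟨hb, hf, h1⟩ := h
  refine ⟨isPBlock_trB e hb, isPBlock_trB e₂ hf, fun ξ hξ χ hχ y => ?_⟩
  have h2 := h1 _ hξ _ hχ (e₂.symm y)
  have h3 : centralChar (tr e₂.symm χ : H → ℂ) (e₂.symm y) = centralChar (χ : H' → ℂ) y :=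
    Cfsg.Agent.H662.centralChar_tr e₂.symm χ y
  have h4 : inducedCentralCharIn H K (tr e.symm ξ : K → ℂ) ((e₂.symm y : H) : G) =
      inducedCentralCharIn H' K' (ξ : K' → ℂ) (y : G) := by
    unfold inducedCentralCharIn
    rw [← finsum_comp_equiv e.toEquiv]
    refine finsum_congr fun k => ?_
    have hk : (e.toEquiv k ∈ {k : K' | ∃ x : H', (x : G) * (k : G) * (x : G)⁻¹ = (y : G)}) =
        (k ∈ {k : K | ∃ x : H, (x : G) * (k : G) * (x : G)⁻¹ = ((e₂.symm y : H) : G)}) := by
      apply propext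
      simp only [Set.mem_ofPred_eq, MulEquiv.toEquiv_eq_coe, EquivLike.coe_coe]
      have h5 := he₂.symm y
      rw [h5]
      constructor
      · rintro ⟨x, hx⟩
        refine ⟨e₂.symm x, ?_⟩
        rw [he₂.symm x, ← hx, he k]
        group
      · rintro ⟨x, hx⟩
        refine ⟨e₂ x, ?_⟩
        rw [he₂ x, he k]
        have h6 : (y : G) = g * (g⁻¹ * (y : G) * g⁻¹⁻¹) * g⁻¹ := by group
        rw [h6, ← hx]
        group
    rw [hk]
    refine finsum_congr fun _ => ?_
    have h7 : (ξ : K' → ℂ) (e.toEquiv k) = (tr e.symm ξ : K → ℂ) k := by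
      rw [tr_apply, MulEquiv.symm_symm]
      rfl
    rw [h7, tr_apply_one]
  rw [h3, h4] at h2
  exact h2

theorem map_centralizer_conj (g z y : G) (h : g * z * g⁻¹ = y) :
    (Subgroup.centralizer ({z} : Set G)).map (MulAut.conj g).toMonoidHom =
      Subgroup.centralizer ({y} : Set G) := by
  rw [← h, ← Cfsg.Agent.Blocks.Basic.centralizer_conj]

theorem map_centralizer_conj' {g z y : G} {C C' : Subgroup G}
    (hC : C = Subgroup.centralizer ({z} : Set G)) (hC' : C' = Subgroup.centralizer ({y} : Set G))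
    (h : g * z * g⁻¹ = y) : C.map (MulAut.conj g).toMonoidHom = C' := by
  rw [hC, hC', map_centralizer_conj g z y h]

theorem map_root_conj {D : Subgroup G} {u : G} (hu : D.map (MulAut.conj u).toMonoidHom = D) :
    (D ⊔ Subgroup.centralizer (D : Set G)).map (MulAut.conj u).toMonoidHom =
      D ⊔ Subgroup.centralizer (D : Set G) := by
  rw [Subgroup.map_sup, hu]
  congr 1
  have h1 : Subgroup.centralizer (((D.map (MulAut.conj u).toMonoidHom : Subgroup G)) : Set G) =
      (Subgroup.centralizer (D : Set G)).map (MulAut.conj u).toMonoidHom := by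
    ext x
    rw [Subgroup.mem_centralizer_iff, Subgroup.mem_map]
    constructor
    · intro h
      refine ⟨u⁻¹ * x * u, ?_, by simp [MulAut.conj_apply]; group⟩
      rw [Subgroup.mem_centralizer_iff]
      intro w hw
      have h2 := h (u * w * u⁻¹) ⟨w, hw, rfl⟩
      calc w * (u⁻¹ * x * u) = u⁻¹ * ((u * w * u⁻¹) * x) * u := by group
        _ = u⁻¹ * (x * (u * w * u⁻¹)) * u := by rw [h2]
        _ = u⁻¹ * x * u * w := by group
    · rintro ⟨y, hy, rfl⟩ w ⟨v, hv, rfl⟩
      rw [Subgroup.mem_centralizer_iff] at hy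
      have h2 := hy v hv
      simp only [MulEquiv.toMonoidHom_eq_coe, MonoidHom.coe_coe, MulAut.conj_apply]
      calc u * v * u⁻¹ * (u * y * u⁻¹) = u * (v * y) * u⁻¹ := by group
        _ = u * (y * v) * u⁻¹ := by rw [h2]
        _ = u * y * u⁻¹ * (u * v * u⁻¹) := by group
  rw [← h1, hu]

theorem mem_normalizer_of_map_eq {D : Subgroup G} {u : G}
    (hu : D.map (MulAut.conj u).toMonoidHom = D) : u ∈ Subgroup.normalizer (D : Set G) := by
  rw [Subgroup.mem_normalizer_iff]
  intro h
  constructor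
  · intro hh
    have h1 : u * h * u⁻¹ ∈ D.map (MulAut.conj u).toMonoidHom := ⟨h, hh, rfl⟩
    rw [hu] at h1
    exact h1
  · intro hh
    have h1 : u * h * u⁻¹ ∈ D.map (MulAut.conj u).toMonoidHom := by rw [hu]; exact hh
    obtain ⟨w, hw, hw'⟩ := h1
    have h2 : w = h := by
      have h3 : u * w * u⁻¹ = u * h * u⁻¹ := hw'
      exact mul_left_cancel (mul_right_cancel h3)
    rw [← h2]
    exact hw

/-- Membership in a mapped subgroup, for subgroups of the domain. -/
theorem map_subgroupOf_cj {g : G} {K K' D : Subgroup G} {e : K ≃* K'} (he : IsCj g e) :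
    (D.subgroupOf K).map e.toMonoidHom = (D.map (MulAut.conj g).toMonoidHom).subgroupOf K' := by
  ext x
  rw [Subgroup.mem_map, Subgroup.mem_subgroupOf, Subgroup.mem_map]
  constructor
  · rintro ⟨y, hy, rfl⟩
    rw [Subgroup.mem_subgroupOf] at hy
    exact ⟨y, hy, (he y).symm⟩
  · rintro ⟨w, hw, hwx⟩
    refine ⟨e.symm x, ?_, e.apply_symm_apply x⟩
    rw [Subgroup.mem_subgroupOf, he.symm x, ← hwx]
    have h1 : g⁻¹ * (MulAut.conj g).toMonoidHom w * g⁻¹⁻¹ = w := by
      simp only [MulEquiv.toMonoidHom_eq_coe, MonoidHom.coe_coe, MulAut.conj_apply]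
      group
    rw [h1]
    exact hw

/-- **Fusion of major subsections.** -/
theorem fuse [Finite G] {p : ℕ} [Fact p.Prime] {M : Ideal AlgInt} (hM : IsPModular p M)
    {D C C' H : Subgroup G} {z z' : G} (hC : C = Subgroup.centralizer ({z} : Set G))
    (hC' : C' = Subgroup.centralizer ({z'} : Set G))
    (hH : H = D ⊔ Subgroup.centralizer (D : Set G)) (hz' : z' ∈ D)
    (hzc' : ∀ w ∈ D, z' * w = w * z')
    {b : Set (IrrCharacter H)} {f : Set (IrrCharacter C)}
    (hf : IsInducedBlockIn M C H b f)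
    (hfD : IsDefectGroup p M f (D.subgroupOf C))
    (hDz : D ≤ C)
    {f' : Set (IrrCharacter C')}
    (hf' : IsInducedBlockIn M C' H b f')
    (hfD' : IsDefectGroup p M f' (D.subgroupOf C'))
    (x : G) (hx : x * z * x⁻¹ = z')
    {e : C ≃* C'}
    (he : IsCj x e) (hef : trB e f = f') :
    ∃ t : G, t * z * t⁻¹ = z' ∧ t ∈ Subgroup.normalizer (D : Set G) ∧
      ∀ θ ∈ b, ∀ θ' : IrrCharacter H,
        (∀ h h' : H, (h' : G) = t * h * t⁻¹ →
          (θ' : H → ℂ) h' = (θ : H → ℂ) h) → θ' ∈ b := by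
  classical
  have hDC' : D ≤ C' := by rw [hC']; exact le_centralizer_of_mem_center hzc'
  have hHC' : H ≤ C' := by rw [hC', hH]; exact root_le_centralizer hz' hzc'
  -- two defect groups of `f'`
  have h1 : IsDefectGroup p M f' ((D.map (MulAut.conj x).toMonoidHom).subgroupOf C') := by
    rw [← map_subgroupOf_cj he, ← hef]
    exact isDefectGroup_trB e hfD
  obtain ⟨c, hc⟩ := defectGroup_conj hM hf'.2.1 h1 hfD'
  have hxD : D.map (MulAut.conj x).toMonoidHom ≤ C' := by
    rintro _ ⟨w, hw, rfl⟩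
    have h2 := he ⟨w, hDz hw⟩
    change x * w * x⁻¹ ∈ C'
    rw [← h2]
    exact (e ⟨w, hDz hw⟩).2
  -- the element `u = c x` normalises `D`
  have hu : D.map (MulAut.conj ((c : G) * x)).toMonoidHom = D := by
    rw [← Cfsg.Agent.Blocks.Basic.map_conj_map_conj]
    have h2 := congrArg (Subgroup.map C'.subtype) hc
    rw [Subgroup.subgroupOf_map_subtype, inf_eq_left.2 hDC', Subgroup.map_map] at h2
    have h3 : (C'.subtype).comp (MulAut.conj c).toMonoidHom =
        (MulAut.conj (c : G)).toMonoidHom.comp C'.subtype := by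
      ext y
      simp
    rw [h3, ← Subgroup.map_map, Subgroup.subgroupOf_map_subtype, inf_eq_left.2 hxD] at h2
    exact h2.symm
  obtain ⟨u, hudef⟩ : ∃ u : G, u = (c : G) * x := ⟨_, rfl⟩
  rw [← hudef] at hu
  have huN := mem_normalizer_of_map_eq hu
  have hcz : (c : G) * z' * (c : G)⁻¹ = z' := by
    have h2 := Subgroup.mem_centralizer_singleton_iff.1 (hC' ▸ c.2 :
      (c : G) ∈ Subgroup.centralizer ({z'} : Set G))
    rw [h2]; group
  have huz : u * z * u⁻¹ = z' := by
    rw [hudef]
    calc (c : G) * x * z * ((c : G) * x)⁻¹ = (c : G) * (x * z * x⁻¹) * (c : G)⁻¹ := by group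
      _ = z' := by rw [hx, hcz]
  -- conjugation by `u`
  have hHu : H.map (MulAut.conj u).toMonoidHom = H := by rw [hH]; exact map_root_conj hu
  have hCu : C.map (MulAut.conj u).toMonoidHom = C' := map_centralizer_conj' hC hC' huz
  have hCc : C'.map (MulAut.conj (c : G)).toMonoidHom = C' := map_centralizer_conj' hC' hC' hcz
  have heHc := isCj_cjIso u H H hHu
  have heCc := isCj_cjIso u C C' hCu
  have h2 := inducedIn_conj heHc heCc hf
  have h3 : trB (cjIso u C C' hCu) f = f' := by
    have hecc : IsCj (c : G) (cjIso (c : G) C' C' hCc) := isCj_cjIso (c : G) C' C' hCc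
    have h4 : cjIso u C C' hCu = e.trans (cjIso (c : G) C' C' hCc) := by
      have h5 := he.trans hecc
      rw [← hudef] at h5
      exact heCc.unique h5
    rw [h4, ← trB_trB, hef, trB_of_mem c.2 hecc]
  rw [h3] at h2
  -- the extended first main theorem in `C'`
  have heq : D.subgroupOf C' ⊔ Subgroup.centralizer ((D.subgroupOf C' : Subgroup C') : Set C') =
      H.subgroupOf C' := by
    apply Subgroup.map_injective C'.subtype_injective
    have h5 : (D.subgroupOf C').map C'.subtype = D := by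
      rw [Subgroup.subgroupOf_map_subtype, inf_eq_left.2 hDC']
    have h6 : Subgroup.centralizer (((D.subgroupOf C').map C'.subtype : Subgroup G) : Set G) ≤
        C' := by
      rw [h5]
      refine le_trans ?_ hHC'
      rw [hH]
      exact le_sup_right
    rw [Subgroup.map_sup, Cfsg.Agent.H662.map_centralizer_eq _ h6, h5,
      Subgroup.subgroupOf_map_subtype, inf_eq_left.2 hHC', hH]
  have key := (Cfsg.Agent.S0973.result p M hM f' hf'.2.1 (D.subgroupOf C') hfD').2
  rw [heq] at key
  obtain ⟨n, hn, hnθ⟩ := key _ _ ((isInducedBlockIn_iff hHC').1 h2)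
    ((isInducedBlockIn_iff hHC').1 hf')
  have hnN : ∀ w : G, w ∈ D → (n : G) * w * (n : G)⁻¹ ∈ D := by
    intro w hw
    have h5 := (Subgroup.mem_normalizer_iff.1 hn ⟨w, hDC' hw⟩).1 (Subgroup.mem_subgroupOf.2 hw)
    exact h5
  have hnD : D.map (MulAut.conj (n : G)).toMonoidHom = D := by
    refine Subgroup.eq_of_le_of_card_ge ?_ ?_
    · rintro _ ⟨w, hw, rfl⟩
      exact hnN w hw
    · exact (Nat.card_congr (Subgroup.equivMapOfInjective _ _
        (MulAut.conj (n : G)).injective).toEquiv).le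
  have hnDN : (n : G) ∈ Subgroup.normalizer (D : Set G) := mem_normalizer_of_map_eq hnD
  have hnz : (n : G)⁻¹ * z' * (n : G) = z' := by
    have h5 := Subgroup.mem_centralizer_singleton_iff.1 (hC' ▸ n.2 :
      (n : G) ∈ Subgroup.centralizer ({z'} : Set G))
    rw [mul_assoc, ← h5]; group
  refine ⟨(n : G)⁻¹ * u, ?_, ?_, ?_⟩
  · calc (n : G)⁻¹ * u * z * ((n : G)⁻¹ * u)⁻¹ = (n : G)⁻¹ * (u * z * u⁻¹) * (n : G) := by group
      _ = z' := by rw [huz, hnz]
  · exact Subgroup.mul_mem _ (Subgroup.inv_mem _ hnDN) huN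
  · intro θ hθ θ' hθθ'
    -- the member of `b` obtained from `θ`
    have hθ1 : tr (eIn hHC').symm (tr (cjIso u H H hHu) θ) ∈
        trB (eIn hHC').symm (trB (cjIso u H H hHu) b) :=
      (tr_mem_trB _ _ _).2 ((tr_mem_trB _ _ _).2 hθ)
    obtain ⟨θ₂, hθ₂, h5⟩ := hnθ _ hθ1
    have h6 : tr (eIn hHC') θ₂ ∈ b := by
      rw [mem_trB, MulEquiv.symm_symm] at hθ₂
      exact hθ₂
    have h7 : θ' = tr (eIn hHC') θ₂ := by
      apply Subtype.ext
      funext h'
      rw [tr_apply]
      have hHn : (n : G) * (h' : G) * (n : G)⁻¹ ∈ H := by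
        have h8 : H.map (MulAut.conj (n : G)).toMonoidHom = H := by
          rw [hH]; exact map_root_conj hnD
        exact h8.le ⟨(h' : G), h'.2, rfl⟩
      have h9 := h5 ((eIn hHC').symm h') (by
        rw [Subgroup.mem_subgroupOf]
        exact hHn)
      rw [h9, tr_apply, MulEquiv.symm_symm]
      -- both sides are values of `θ`
      have h10 := heHc.symm ⟨(n : G) * (h' : G) * (n : G)⁻¹, hHn⟩
      rw [hθθ' ((cjIso u H H hHu).symm ⟨(n : G) * (h' : G) * (n : G)⁻¹, hHn⟩) h' (by
        rw [h10]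
        group)]
      rfl
    rw [h7]
    exact h6

end Cfsg.Agent.H658
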