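import Cfsg.Agent.H658.MajorVal
import Cfsg.Agent.H658.SubConj
import Cfsg.Agent.Blocks.PPart

/-!
# The sum of the contributions of a family of subsections

`cn p y b χ` is the real number `contr p y b χ χ`.

* `cn_trB`: invariance under conjugation;
* `sum_cn_le`: the sum over distinct blocks `b` of `H ≤ G` is at most
  `|H|⁻¹ ∑_{c ∈ H p-regular} |χ (y c)| ^ 2`;
* `sum_major_le`: for a family of subsections `(u i, f i)` with at most `e` members in each
  conjugacy class, the sum of the contributions to `(χ, χ)` is at most `e`.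
-/

set_option autoImplicit false
set_option linter.unusedSectionVars false

open Cfsg
open scoped ComplexConjugate

namespace Cfsg.Agent.H658

open Cfsg.Agent.Blocks.Local Cfsg.Agent.Characters Cfsg.Agent.Blocks.Blau
open Cfsg.Agent.H613.RegGram Cfsg.Agent.H613.Contrib Cfsg.Agent.H613.ContribVal
open Cfsg.Agent.H662 (tr trB tr_apply tr_apply_map tr_apply_one tr_mem_trB isPBlock_trB mem_trB
  tr_symm_tr tr_tr_symm trB_symm_trB)

variable {G : Type*} [Group G] [Finite G] {p : ℕ}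

/-- The contribution of `(y, b)` to the norm of `χ`, as a real number. -/
noncomputable def cn (p : ℕ) (y : G) {H : Subgroup G} (b : Set (IrrCharacter H)) (χ : G → ℂ) : ℝ :=
  letI := Fintype.ofFinite H
  ∑ᶠ η ∈ b, ‖wt p y χ (η : H → ℂ)‖ ^ 2

theorem cn_def (p : ℕ) (y : G) {H : Subgroup G} [Fintype H] (b : Set (IrrCharacter H))
    (χ : G → ℂ) : cn p y b χ = ∑ᶠ η ∈ b, ‖wt p y χ (η : H → ℂ)‖ ^ 2 := by
  unfold cn
  have h : Fintype.ofFinite H = ‹Fintype H› := Subsingleton.elim _ _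
  rw [h]

theorem cn_nonneg (p : ℕ) (y : G) {H : Subgroup G} (b : Set (IrrCharacter H))
    (χ : G → ℂ) : 0 ≤ cn p y b χ := by
  unfold cn
  exact finsum_nonneg fun η => finsum_nonneg fun _ => by positivity

theorem contr_self_eq_cn (p : ℕ) (y : G) {H : Subgroup G} [Fintype H] (b : Set (IrrCharacter H))
    [Fintype b] (χ : G → ℂ) : contr p y b χ χ = (cn p y b χ : ℂ) := by
  rw [contr_self_eq, cn_def, ← finsum_set_coe_eq_finsum_mem, finsum_eq_sum_of_fintype]

/-- `rg` is compatible with isomorphisms. -/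
theorem rg_comp_equiv {K K' : Type*} [Group K] [Group K'] [Fintype K] [Fintype K'] (p : ℕ)
    (e : K ≃* K') (f f' : K' → ℂ) : rg p (fun x => f (e x)) (fun x => f' (e x)) = rg p f f' := by
  classical
  rw [rg_def, rg_def, pair_eq_sum_filter, pair_eq_sum_filter, Nat.card_congr e.toEquiv]
  congr 1
  rw [Finset.sum_filter, Finset.sum_filter, ← Equiv.sum_comp e.toEquiv]
  refine Finset.sum_congr rfl fun x _ => ?_
  have h1 : orderOf (e.toEquiv x) = orderOf x := MulEquiv.orderOf_eq e x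
  rw [h1]
  rfl

/-- Invariance under conjugation. -/
theorem cn_trB {z y g : G} (h : g * z * g⁻¹ = y) {K K' : Subgroup G} {e : K ≃* K'}
    (he : IsCj g e) (b : Set (IrrCharacter K)) {χ : G → ℂ} (hχ : IsClassFunction G χ) :
    cn p y (trB e b) χ = cn p z b χ := by
  have := Fintype.ofFinite K
  have := Fintype.ofFinite K'
  rw [cn_def, cn_def, Cfsg.Agent.H662.finsum_trB]
  refine finsum_mem_congr rfl fun η _ => ?_
  congr 2
  rw [wt_def, wt_def, ← rg_comp_equiv p e]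
  congr 1
  · funext c
    rw [he c, ← h]
    have h1 : g * z * g⁻¹ * (g * (c : G) * g⁻¹) = g * (z * (c : G)) * g⁻¹ := by group
    rw [h1, hχ]
  · funext c
    exact tr_apply_map e η c

/-- Parseval. -/
theorem sum_wt_sq {y : G} {H : Subgroup G} [Fintype H] [Fintype (IrrCharacter H)]
    (hH : H = Subgroup.centralizer ({y} : Set G)) {χ : G → ℂ} (hχ : IsClassFunction G χ)
    [DecidablePred fun x : H => ¬ p ∣ orderOf x] :
    ∑ η : IrrCharacter H, ‖wt p y χ (η : H → ℂ)‖ ^ 2 =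
      (Nat.card H : ℝ)⁻¹ * ∑ c : H with ¬ p ∣ orderOf c, ‖χ (y * (c : G))‖ ^ 2 := by
  have h1 := rg_eq_sum p (isClassFunction_mul hH hχ) (isClassFunction_mul hH hχ)
  rw [rg_def, pair_eq_sum_filter] at h1
  have h2 : ((∑ η : IrrCharacter H, ‖wt p y χ (η : H → ℂ)‖ ^ 2 : ℝ) : ℂ) =
      (((Nat.card H : ℝ)⁻¹ * ∑ c : H with ¬ p ∣ orderOf c, ‖χ (y * (c : G))‖ ^ 2 : ℝ) : ℂ) := by
    push_cast
    have h3 : ∀ z : ℂ, (‖z‖ : ℂ) ^ 2 = z * conj z := by
      intro z
      rw [Complex.mul_conj, Complex.normSq_eq_norm_sq]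
      push_cast
      rfl
    simp only [h3]
    exact h1.symm
  exact_mod_cast h2

variable [Fact p.Prime] {M : Ideal AlgInt}

/-- The sum of the contributions of distinct blocks. -/
theorem sum_cn_le (hM : IsPModular p M) {y : G} {H : Subgroup G} [Fintype H]
    (hH : H = Subgroup.centralizer ({y} : Set G)) {χ : G → ℂ} (hχ : IsClassFunction G χ)
    [DecidablePred fun x : H => ¬ p ∣ orderOf x]
    (S : Finset (Set (IrrCharacter H))) (hS : ∀ b ∈ S, IsPBlock M b) :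
    ∑ b ∈ S, cn p y b χ ≤
      (Nat.card H : ℝ)⁻¹ * ∑ c : H with ¬ p ∣ orderOf c, ‖χ (y * (c : G))‖ ^ 2 := by
  classical
  have := isPrime_of_isPModular hM
  have := Core.finite_irr (G := H)
  have := Fintype.ofFinite (IrrCharacter H)
  rw [← sum_wt_sq hH hχ]
  have h1 : ∀ b : Set (IrrCharacter H), cn p y b χ =
      ∑ η : IrrCharacter H with η ∈ b, ‖wt p y χ (η : H → ℂ)‖ ^ 2 := by
    intro b
    rw [cn_def, Cfsg.Agent.H648.HeightForm.finsum_mem_filter]
  rw [Finset.sum_congr rfl fun b _ => h1 b, ← Finset.sum_biUnion]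
  · exact Finset.sum_le_univ_sum_of_nonneg fun η => by positivity
  · intro b hb b' hb' hne
    change Disjoint _ _
    rw [Finset.disjoint_left]
    intro η hη hη'
    apply hne
    have h2 : η ∈ b := (Finset.mem_filter.1 hη).2
    have h3 : η ∈ b' := (Finset.mem_filter.1 hη').2
    rw [Blocks.Basic.isPBlock_eq_blockOf (hS b hb) h2,
      Blocks.Basic.isPBlock_eq_blockOf (hS b' hb') h3]

/-- The number of pairs `(j, g)` giving a fixed subsection. -/
theorem card_fiber_le {ι : Type*} [Finite ι] (u : ι → G)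
    (f : ∀ i, Set (IrrCharacter (Subgroup.centralizer ({u i} : Set G)))) {e : ℕ}
    (hfib : ∀ i, Nat.card {j : ι // ∃ (x : G) (ε : Subgroup.centralizer ({u j} : Set G) ≃*
      Subgroup.centralizer ({u i} : Set G)), IsCj x ε ∧ x * u j * x⁻¹ = u i ∧
        trB ε (f j) = f i} ≤ e) (y : G) (ψ : {s : ι × G // s.2 * u s.1 * s.2⁻¹ = y} →
      Set (IrrCharacter (Subgroup.centralizer ({y} : Set G))))
    (hψ : ∀ s, ψ s = trB (cjIso s.1.2 (Subgroup.centralizer ({u s.1.1} : Set G))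
      (Subgroup.centralizer ({y} : Set G)) (map_centralizer_conj _ _ _ s.2)) (f s.1.1))
    (s₀ : {s : ι × G // s.2 * u s.1 * s.2⁻¹ = y}) :
    Nat.card {s : {s : ι × G // s.2 * u s.1 * s.2⁻¹ = y} // ψ s = ψ s₀} ≤
      e * Nat.card (Subgroup.centralizer ({y} : Set G)) := by
  classical
  obtain ⟨⟨i₀, g₀⟩, hs₀⟩ := s₀
  dsimp only at hs₀
  let J := {j : ι // ∃ (x : G) (ε : Subgroup.centralizer ({u j} : Set G) ≃*
      Subgroup.centralizer ({u i₀} : Set G)), IsCj x ε ∧ x * u j * x⁻¹ = u i₀ ∧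
        trB ε (f j) = f i₀}
  have hx : ∀ j : J, ∃ x : G, x * u j.1 * x⁻¹ = u i₀ := fun j => by
    obtain ⟨x, -, -, h, -⟩ := j.2
    exact ⟨x, h⟩
  choose x hx using hx
  have hJ : ∀ s : {s : {s : ι × G // s.2 * u s.1 * s.2⁻¹ = y} // ψ s = ψ ⟨(i₀, g₀), hs₀⟩},
      ∃ (x : G) (ε : Subgroup.centralizer ({u s.1.1.1} : Set G) ≃*
      Subgroup.centralizer ({u i₀} : Set G)), IsCj x ε ∧ x * u s.1.1.1 * x⁻¹ = u i₀ ∧
        trB ε (f s.1.1.1) = f i₀ := by
    rintro ⟨⟨⟨j, g⟩, hs⟩, hψs⟩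
    dsimp only at hs ⊢
    have e1 := isCj_cjIso g (Subgroup.centralizer ({u j} : Set G))
      (Subgroup.centralizer ({y} : Set G)) (map_centralizer_conj _ _ _ hs)
    have e2 := isCj_cjIso g₀ (Subgroup.centralizer ({u i₀} : Set G))
      (Subgroup.centralizer ({y} : Set G)) (map_centralizer_conj _ _ _ hs₀)
    refine ⟨g₀⁻¹ * g, _, e1.trans e2.symm, ?_, ?_⟩
    · have h1 : g₀⁻¹ * g * u j * (g₀⁻¹ * g)⁻¹ = g₀⁻¹ * (g * u j * g⁻¹) * g₀ := by group
      rw [h1, hs, ← hs₀]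
      group
    · rw [hψ, hψ] at hψs
      dsimp only at hψs
      rw [← trB_trB, hψs, trB_symm_trB]
  let F : {s : {s : ι × G // s.2 * u s.1 * s.2⁻¹ = y} // ψ s = ψ ⟨(i₀, g₀), hs₀⟩} →
      J × Subgroup.centralizer ({y} : Set G) := fun s =>
    (⟨s.1.1.1, hJ s⟩, ⟨s.1.1.2 * (g₀ * x ⟨s.1.1.1, hJ s⟩)⁻¹, by
      rw [Subgroup.mem_centralizer_singleton_iff]
      have h1 := s.1.2
      have h2 := hx ⟨s.1.1.1, hJ s⟩
      dsimp only at h2
      have h3 : (g₀ * x ⟨s.1.1.1, hJ s⟩) * u s.1.1.1 * (g₀ * x ⟨s.1.1.1, hJ s⟩)⁻¹ = y := by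
        calc g₀ * x ⟨s.1.1.1, hJ s⟩ * u s.1.1.1 * (g₀ * x ⟨s.1.1.1, hJ s⟩)⁻¹ =
            g₀ * (x ⟨s.1.1.1, hJ s⟩ * u s.1.1.1 * (x ⟨s.1.1.1, hJ s⟩)⁻¹) * g₀⁻¹ := by group
          _ = g₀ * u i₀ * g₀⁻¹ := by rw [h2]
          _ = y := hs₀
      generalize g₀ * x ⟨s.1.1.1, hJ s⟩ = w at h3
      calc s.1.1.2 * w⁻¹ * y = s.1.1.2 * w⁻¹ * (w * u s.1.1.1 * w⁻¹) := by rw [h3]
        _ = s.1.1.2 * u s.1.1.1 * s.1.1.2⁻¹ * (s.1.1.2 * w⁻¹) := by group
        _ = y * (s.1.1.2 * w⁻¹) := by rw [h1]⟩)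
  have hF : Function.Injective F := by
    rintro ⟨⟨⟨j, g⟩, hs⟩, hψs⟩ ⟨⟨⟨j', g'⟩, hs'⟩, hψs'⟩ h
    have h1 : j = j' := congrArg (fun t => t.1.1) h
    subst h1
    have h2 : g * (g₀ * x _)⁻¹ = g' * (g₀ * x _)⁻¹ := congrArg (fun t => ((t.2 : _) : G)) h
    have h3 : g = g' := mul_right_cancel h2
    subst h3
    rfl
  calc Nat.card _ ≤ Nat.card (J × Subgroup.centralizer ({y} : Set G)) :=
        Nat.card_le_card_of_injective F hF
    _ = Nat.card J * Nat.card (Subgroup.centralizer ({y} : Set G)) := Nat.card_prod _ _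
    _ ≤ e * Nat.card (Subgroup.centralizer ({y} : Set G)) := Nat.mul_le_mul_right _ (hfib i₀)

/-- The part of the sum at `y`. -/
theorem sum_at_le (hM : IsPModular p M) {ι : Type*} [Fintype ι] [Fintype G] (u : ι → G)
    (f : ∀ i, Set (IrrCharacter (Subgroup.centralizer ({u i} : Set G))))
    (hf : ∀ i, IsPBlock M (f i)) {e : ℕ}
    (hfib : ∀ i, Nat.card {j : ι // ∃ (x : G) (ε : Subgroup.centralizer ({u j} : Set G) ≃*
      Subgroup.centralizer ({u i} : Set G)), IsCj x ε ∧ x * u j * x⁻¹ = u i ∧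
        trB ε (f j) = f i} ≤ e) (y : G) {χ : G → ℂ} (hχ : IsClassFunction G χ)
    [Fintype (Subgroup.centralizer ({y} : Set G))]
    [DecidablePred fun x : Subgroup.centralizer ({y} : Set G) => ¬ p ∣ orderOf x]
    [DecidablePred fun s : ι × G => s.2 * u s.1 * s.2⁻¹ = y] :
    ∑ s : ι × G with s.2 * u s.1 * s.2⁻¹ = y, cn p (u s.1) (f s.1) χ ≤
      (e : ℝ) * ∑ c : Subgroup.centralizer ({y} : Set G) with ¬ p ∣ orderOf c,
        ‖χ (y * (c : G))‖ ^ 2 := by
  classical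
  have := isPrime_of_isPModular hM
  let ψ : {s : ι × G // s.2 * u s.1 * s.2⁻¹ = y} →
      Set (IrrCharacter (Subgroup.centralizer ({y} : Set G))) := fun s =>
    trB (cjIso s.1.2 (Subgroup.centralizer ({u s.1.1} : Set G))
      (Subgroup.centralizer ({y} : Set G)) (map_centralizer_conj _ _ _ s.2)) (f s.1.1)
  have hcn : ∀ s, cn p (u s.1.1) (f s.1.1) χ = cn p y (ψ s) χ := by
    rintro ⟨⟨j, g⟩, hs⟩
    exact (cn_trB hs (isCj_cjIso g _ _ (map_centralizer_conj _ _ _ hs)) (f j) hχ).symm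
  have h1 : ∑ s : ι × G with s.2 * u s.1 * s.2⁻¹ = y, cn p (u s.1) (f s.1) χ =
      ∑ s : {s : ι × G // s.2 * u s.1 * s.2⁻¹ = y}, cn p y (ψ s) χ := by
    rw [Finset.sum_subtype (p := fun s : ι × G => s.2 * u s.1 * s.2⁻¹ = y) _ (fun s => by simp)]
    exact Finset.sum_congr rfl fun s _ => hcn s
  rw [h1, Finset.sum_comp (fun b => cn p y b χ) ψ]
  have h2 := sum_cn_le hM (y := y) rfl hχ (Finset.univ.image ψ) (by
    intro b hb
    obtain ⟨s, -, rfl⟩ := Finset.mem_image.1 hb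
    exact isPBlock_trB _ (hf _))
  have h3 : ∀ b ∈ Finset.univ.image ψ, (Finset.univ.filter fun s => ψ s = b).card •
      cn p y b χ ≤ (e : ℝ) * (Nat.card (Subgroup.centralizer ({y} : Set G)) : ℝ) *
        cn p y b χ := by
    intro b hb
    obtain ⟨s₀, -, rfl⟩ := Finset.mem_image.1 hb
    rw [nsmul_eq_mul]
    refine mul_le_mul_of_nonneg_right ?_ (cn_nonneg _ _ _ _)
    have h4 := card_fiber_le u f hfib y ψ (fun _ => rfl) s₀
    rw [Nat.card_eq_fintype_card, Fintype.card_subtype] at h4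
    exact_mod_cast h4
  refine (Finset.sum_le_sum h3).trans ?_
  rw [← Finset.mul_sum, mul_assoc]
  refine mul_le_mul_of_nonneg_left ?_ (Nat.cast_nonneg e)
  have hC : (0 : ℝ) < (Nat.card (Subgroup.centralizer ({y} : Set G)) : ℝ) := by
    exact_mod_cast Nat.card_pos
  rw [← le_inv_mul_iff₀ hC]
  exact h2

/-- The sum over the sections. -/
theorem sum_sections_le [Fintype G] (χ : G → ℂ) (Y : Finset G)
    (hY : ∀ y ∈ Y, ∃ k : ℕ, orderOf y = p ^ k)
    [∀ y : G, Fintype (Subgroup.centralizer ({y} : Set G))]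
    [∀ y : G, DecidablePred fun x : Subgroup.centralizer ({y} : Set G) => ¬ p ∣ orderOf x] :
    ∑ y ∈ Y, ∑ c : Subgroup.centralizer ({y} : Set G) with ¬ p ∣ orderOf c,
      ‖χ (y * (c : G))‖ ^ 2 ≤ ∑ g : G, ‖χ g‖ ^ 2 := by
  classical
  rw [Finset.sum_sigma' Y (fun y => Finset.univ.filter
    fun c : Subgroup.centralizer ({y} : Set G) => ¬ p ∣ orderOf c)
    (fun y c => ‖χ (y * (c : G))‖ ^ 2)]
  have hinj : Set.InjOn (fun s : (y : G) × Subgroup.centralizer ({y} : Set G) =>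
      s.1 * (s.2 : G)) (Y.sigma fun y => Finset.univ.filter
      fun c : Subgroup.centralizer ({y} : Set G) => ¬ p ∣ orderOf c :
        Finset ((y : G) × Subgroup.centralizer ({y} : Set G))) := by
    rintro ⟨y, c⟩ hs ⟨y', c'⟩ hs' h
    dsimp only at h
    rw [Finset.mem_coe, Finset.mem_sigma, Finset.mem_filter] at hs hs'
    have key : ∀ (y : G) (c : Subgroup.centralizer ({y} : Set G)), y ∈ Y → ¬ p ∣ orderOf c →
        IsPPart p (y * (c : G)) y := by
      intro y c hy hc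
      refine ⟨c, rfl, ?_, hY y hy, ?_⟩
      · exact (Subgroup.mem_centralizer_singleton_iff.1 c.2).symm
      · rw [Subgroup.orderOf_coe]; exact hc
    have h1 := key y c hs.1 hs.2.2
    have h2 := key y' c' hs'.1 hs'.2.2
    rw [h] at h1
    have h3 : y = y' := Blocks.PPart.isPPart_unique h1 h2
    subst h3
    have h4 : c = c' := Subtype.ext (mul_left_cancel h)
    rw [h4]
  rw [← Finset.sum_image (f := fun g : G => ‖χ g‖ ^ 2) hinj]
  exact Finset.sum_le_univ_sum_of_nonneg fun η => by positivity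

/-- For a family of subsections with at most `e` members in each conjugacy class, the sum of the
contributions to the norm of an irreducible character is at most `e`. -/
theorem sum_major_le (hM : IsPModular p M) {ι : Type*} [Fintype ι] (u : ι → G)
    (hu : ∀ i, ∃ k : ℕ, orderOf (u i) = p ^ k)
    (f : ∀ i, Set (IrrCharacter (Subgroup.centralizer ({u i} : Set G))))
    (hf : ∀ i, IsPBlock M (f i)) {e : ℕ}
    (hfib : ∀ i, Nat.card {j : ι // ∃ (x : G) (ε : Subgroup.centralizer ({u j} : Set G) ≃*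
      Subgroup.centralizer ({u i} : Set G)), IsCj x ε ∧ x * u j * x⁻¹ = u i ∧
        trB ε (f j) = f i} ≤ e) (χ : IrrCharacter G) :
    ∑ i, cn p (u i) (f i) (χ : G → ℂ) ≤ e := by
  classical
  have := Fintype.ofFinite G
  have hcls := Core.isIrr_isClassFunction χ.2
  have hG : (0 : ℝ) < (Nat.card G : ℝ) := by exact_mod_cast Nat.card_pos
  -- norm one
  have hnorm : ∑ g : G, ‖(χ : G → ℂ) g‖ ^ 2 = Nat.card G := by
    have h1 := Core.classInner_irr_self χ.2
    rw [Blocks.Basic.classInner_def] at h1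
    have h2 : (Nat.card G : ℂ) ≠ 0 := by exact_mod_cast Nat.card_pos.ne'
    have h3 : ∑ g : G, (χ : G → ℂ) g * conj ((χ : G → ℂ) g) = Nat.card G := by
      have h4 := congrArg (fun t => (Nat.card G : ℂ) * t) h1
      simp only [mul_one] at h4
      rw [← mul_assoc, mul_inv_cancel₀ h2, one_mul] at h4
      exact h4
    have h5 : ((∑ g : G, ‖(χ : G → ℂ) g‖ ^ 2 : ℝ) : ℂ) = ((Nat.card G : ℝ) : ℂ) := by
      push_cast
      rw [← h3]
      refine Finset.sum_congr rfl fun g _ => ?_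
      rw [Complex.mul_conj, Complex.normSq_eq_norm_sq]
      push_cast
      rfl
    exact_mod_cast h5
  have h1 : (Nat.card G : ℝ) * ∑ i, cn p (u i) (f i) (χ : G → ℂ) =
      ∑ s : ι × G, cn p (u s.1) (f s.1) (χ : G → ℂ) := by
    rw [Fintype.sum_prod_type, Finset.mul_sum]
    refine Finset.sum_congr rfl fun i _ => ?_
    dsimp only
    rw [Finset.sum_const, Finset.card_univ, nsmul_eq_mul, Nat.card_eq_fintype_card]
  let Y : Finset G := (Finset.univ : Finset (ι × G)).image fun s => s.2 * u s.1 * s.2⁻¹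
  have hY : ∀ y ∈ Y, ∃ k : ℕ, orderOf y = p ^ k := by
    intro y hy
    obtain ⟨s, -, rfl⟩ := Finset.mem_image.1 hy
    obtain ⟨k, hk⟩ := hu s.1
    refine ⟨k, ?_⟩
    rw [← hk]
    exact (MulAut.conj s.2).orderOf_eq (u s.1)
  have h2 : ∑ s : ι × G, cn p (u s.1) (f s.1) (χ : G → ℂ) =
      ∑ y ∈ Y, ∑ s : ι × G with s.2 * u s.1 * s.2⁻¹ = y, cn p (u s.1) (f s.1) (χ : G → ℂ) :=
    (Finset.sum_fiberwise_of_maps_to (fun s _ => Finset.mem_image_of_mem _ (Finset.mem_univ s))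
      _).symm
  have h3 : ∑ s : ι × G, cn p (u s.1) (f s.1) (χ : G → ℂ) ≤ (e : ℝ) * Nat.card G := by
    rw [h2, ← hnorm]
    refine (Finset.sum_le_sum fun y _ => sum_at_le hM u f hf hfib y hcls).trans ?_
    rw [← Finset.mul_sum]
    exact mul_le_mul_of_nonneg_left (sum_sections_le (χ : G → ℂ) Y hY) (Nat.cast_nonneg e)
  rw [← h1, mul_comm] at h3
  exact le_of_mul_le_mul_right h3 hG

end Cfsg.Agent.H658
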